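import Mathlib
import Cfsg.Agent.H78.M11G.Data

/-!
Automorphisms of a graph on 165 vertices: the refinement certificate.
-/

set_option autoImplicit false

namespace Cfsg.Agent.H78.M11G

/-- row -/
def grow (k : ℕ) : ℕ := rowList.getD k 0

/-- at least one common neighbour -/
def meet (a b : ℕ) : Bool := grow a &&& grow b != 0

/-- at least two common neighbours -/
def meet2 (a b : ℕ) : Bool := ((grow a &&& grow b) &&& ((grow a &&& grow b) - 1)) != 0

/-- relation signature -/
def sig (a b : ℕ) : Bool × Bool × Bool := ((grow a).testBit b, meet a b, meet2 a b)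

/-- the graph automorphisms -/
def autGraph : Subgroup (Equiv.Perm (Fin 165)) where
  carrier := {σ | ∀ x y : Fin 165, (grow (σ x)).testBit (σ y) = (grow x).testBit y}
  one_mem' := fun _ _ => rfl
  mul_mem' := fun {σ τ} hσ hτ x y => (hσ (τ x) (τ y)).trans (hτ x y)
  inv_mem' := fun {σ} hσ x y => by
    have := hσ (σ⁻¹ x) (σ⁻¹ y)
    rw [← Equiv.Perm.mul_apply, ← Equiv.Perm.mul_apply, mul_inv_cancel] at this
    exact this.symm

theorem grow_lt : ((List.range 165).all fun k => decide (grow k < 2 ^ 165)) = true := by decide +kernel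

theorem bit_lt {a : Fin 165} {i : ℕ} (h : (grow a).testBit i = true) : i < 165 := by
  by_contra hc
  have hlt := of_decide_eq_true (List.all_eq_true.mp grow_lt a (List.mem_range.mpr a.isLt))
  have := Nat.testBit_lt_two_pow (lt_of_lt_of_le hlt (Nat.pow_le_pow_right (by norm_num) (Nat.le_of_not_lt hc)))
  rw [h] at this
  exact Bool.noConfusion this

theorem meet_iff (a b : Fin 165) :
    meet a b = true ↔ ∃ w : Fin 165, (grow a).testBit w = true ∧ (grow b).testBit w = true := by
  rw [meet, bne_iff_ne]
  constructor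
  · intro h
    obtain ⟨i, hi⟩ := Nat.exists_testBit_of_ne_zero h
    rw [Nat.testBit_and, Bool.and_eq_true] at hi
    exact ⟨⟨i, bit_lt hi.1⟩, hi⟩
  · rintro ⟨w, h1, h2⟩ h0
    have : (grow a &&& grow b).testBit w = true := by rw [Nat.testBit_and, h1, h2]; rfl
    rw [h0, Nat.zero_testBit] at this
    exact Bool.noConfusion this

theorem meet2_iff (a b : Fin 165) :
    meet2 a b = true ↔ ∃ u w : Fin 165, u ≠ w ∧ ((grow a).testBit u = true ∧ (grow b).testBit u = true) ∧
      (grow a).testBit w = true ∧ (grow b).testBit w = true := by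
  rw [meet2, bne_iff_ne]
  set x := grow a &&& grow b with hx
  have hbit : ∀ i, x.testBit i = true → (grow a).testBit i = true ∧ (grow b).testBit i = true := by
    intro i hi
    rw [hx, Nat.testBit_and, Bool.and_eq_true] at hi
    exact hi
  constructor
  · intro h
    have hx0 : x ≠ 0 := by intro h0; rw [h0] at h; simp at h
    obtain ⟨i, hi⟩ := Nat.exists_testBit_of_ne_zero h
    rw [Nat.testBit_and, Bool.and_eq_true] at hi
    by_contra hcon
    push Not at hcon
    have huniq : ∀ j, x.testBit j = true → j = i := by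
      intro j hj
      by_contra hne
      obtain ⟨h1, h2⟩ := hbit i hi.1
      obtain ⟨h3, h4⟩ := hbit j hj
      exact hcon ⟨i, bit_lt h1⟩ ⟨j, bit_lt h3⟩ (fun e => hne (congrArg Fin.val e).symm) ⟨h1, h2⟩ h3 h4
    have hpow : x = 2 ^ i := by
      apply Nat.eq_of_testBit_eq
      intro j
      rw [Nat.testBit_two_pow]
      by_cases hj : i = j
      · subst hj; simp [hi.1]
      · simp only [hj, decide_false]
        by_contra hne
        exact hj (huniq j (by simpa using hne)).symm
    exact h ((Nat.and_sub_one_eq_zero_iff_isPowerOfTwo hx0).mpr ⟨i, hpow⟩)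
  · rintro ⟨u, w, hne, ⟨hu1, hu2⟩, hw1, hw2⟩ h0
    have hu : x.testBit u = true := by rw [hx, Nat.testBit_and, hu1, hu2]; rfl
    have hw : x.testBit w = true := by rw [hx, Nat.testBit_and, hw1, hw2]; rfl
    have hx0 : x ≠ 0 := by intro e; rw [e, Nat.zero_testBit] at hu; exact Bool.noConfusion hu
    obtain ⟨k, hk⟩ := (Nat.and_sub_one_eq_zero_iff_isPowerOfTwo hx0).mp h0
    rw [hk, Nat.testBit_two_pow, decide_eq_true_eq] at hu hw
    exact hne (Fin.ext (hu.symm.trans hw))

theorem sig_map {σ : Equiv.Perm (Fin 165)} (h : σ ∈ autGraph) (a b : Fin 165) :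
    sig (σ a) (σ b) = sig a b := by
  have h1 : meet (σ a) (σ b) = meet a b := by
    rw [Bool.eq_iff_iff, meet_iff, meet_iff]
    constructor
    · rintro ⟨w, hw⟩
      obtain ⟨v, rfl⟩ := σ.surjective w
      exact ⟨v, by rwa [h, h] at hw⟩
    · rintro ⟨w, hw⟩
      exact ⟨σ w, by rwa [h, h]⟩
  have h2 : meet2 (σ a) (σ b) = meet2 a b := by
    rw [Bool.eq_iff_iff, meet2_iff, meet2_iff]
    constructor
    · rintro ⟨u, w, hne, hu, hw⟩
      obtain ⟨u', rfl⟩ := σ.surjective u
      obtain ⟨w', rfl⟩ := σ.surjective w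
      exact ⟨u', w', fun e => hne (by rw [e]), by rwa [h, h] at hu, by rwa [h, h] at hw⟩
    · rintro ⟨u, w, hne, hu, hw⟩
      exact ⟨σ u, σ w, σ.injective.ne hne, by rwa [h, h], by rwa [h, h]⟩
  simp only [sig, h a b, h1, h2]

/-- check of the refinement -/
def refineB : List (ℕ × List ℕ) → List ℕ → Bool
  | [], known => (List.range 165).all fun v => known.contains v
  | (w, wit) :: rest, known =>
    wit.all (fun k => known.contains k && decide (k < 165)) && decide (w < 165) &&
      (List.range 165).all (fun v => v == w || wit.any fun k => sig v k != sig w k) &&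
      refineB rest (w :: known)

theorem refine_ok : refineB steps [0, base2] = true := by decide +kernel

theorem refine_spec {σ : Equiv.Perm (Fin 165)} (h : σ ∈ autGraph) :
    ∀ (L : List (ℕ × List ℕ)) (known : List ℕ), refineB L known = true →
      (∀ k : Fin 165, k.val ∈ known → σ k = k) → σ = 1
  | [], known, hB, hfix => by
    refine Equiv.ext fun x => hfix x ?_
    exact List.contains_iff_mem.mp (List.all_eq_true.mp hB x (List.mem_range.mpr x.isLt))
  | (w, wit) :: rest, known, hB, hfix => by
    simp only [refineB, Bool.and_eq_true, List.all_eq_true, decide_eq_true_eq] at hB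
    refine refine_spec h rest (w :: known) hB.2 fun k hk => ?_
    rcases List.mem_cons.mp hk with hk | hk
    · have hw : w < 165 := hB.1.1.2
      obtain rfl : k = ⟨w, hw⟩ := Fin.ext hk
      have hv := hB.1.2 (σ ⟨w, hw⟩).val (List.mem_range.mpr (σ ⟨w, hw⟩).isLt)
      rw [Bool.or_eq_true, beq_iff_eq] at hv
      rcases hv with hv | hv
      · exact Fin.ext hv
      · exfalso
        obtain ⟨k, hk1, hk2⟩ := List.any_eq_true.mp hv
        obtain ⟨hk3, hk4⟩ := hB.1.1.1 k hk1
        have hfk := hfix ⟨k, hk4⟩ (List.contains_iff_mem.mp hk3)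
        have hs := sig_map h ⟨w, hw⟩ ⟨k, hk4⟩
        rw [hfk] at hs
        exact bne_iff_ne.mp hk2 hs
    · exact hfix k hk

theorem second_count : ((List.range 165).all fun u => decide
    (((List.range 165).filter fun v => v != u && sig v u == sig base2 0).length ≤ 48)) = true ∧
    base2 ≠ 0 ∧ base2 < 165 := by decide +kernel

/-- The graph has at most 7920 automorphisms. -/
theorem card_autGraph_le : Nat.card autGraph ≤ 7920 := by
  classical
  let T : Fin 165 → Finset (Fin 165) := fun u => Finset.univ.filter fun v =>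
    v ≠ u ∧ sig v.val u.val = sig base2 0
  have hT : ∀ u, (T u).card ≤ 48 := by
    intro u
    refine le_trans ?_ (of_decide_eq_true (List.all_eq_true.mp second_count.1 u
      (List.mem_range.mpr u.isLt)))
    rw [← List.toFinset_card_of_nodup (List.Nodup.filter _ List.nodup_range)]
    refine Finset.card_le_card_of_injOn Fin.val (fun v hv => ?_) fun a _ b _ hab => Fin.ext hab
    obtain ⟨h1, h2⟩ := (Finset.mem_filter.mp hv).2
    simp [h2, Fin.val_ne_iff.mpr h1, v.isLt]
  let b : Fin 165 := ⟨base2, second_count.2.2⟩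
  have hb : b ≠ 0 := fun h => second_count.2.1 (congrArg Fin.val h)
  let φ : autGraph → (Finset.univ.sigma T : Finset (Σ _ : Fin 165, Fin 165)) := fun s =>
    ⟨⟨s.1 0, s.1 b⟩, by
      simp only [Finset.mem_sigma, Finset.mem_univ, true_and, T, Finset.mem_filter]
      exact ⟨s.1.injective.ne hb, sig_map s.2 b 0⟩⟩
  have hφ : Function.Injective φ := by
    intro s t hst
    have h := congrArg Subtype.val hst
    simp only [φ, Sigma.mk.inj_iff, heq_eq_eq] at h
    have h1 : (t⁻¹ * s : autGraph).1 = 1 := by
      refine refine_spec (t⁻¹ * s).2 steps [0, base2] refine_ok fun k hk => ?_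
      show t.1⁻¹ (s.1 k) = k
      rw [List.mem_cons, List.mem_singleton] at hk
      rcases hk with hk | hk
      · obtain rfl : k = 0 := Fin.ext hk
        rw [h.1, Equiv.Perm.inv_def, Equiv.symm_apply_apply]
      · obtain rfl : k = b := Fin.ext hk
        rw [h.2, Equiv.Perm.inv_def, Equiv.symm_apply_apply]
    exact (inv_mul_eq_one.mp (Subtype.ext h1)).symm
  refine (Nat.card_le_card_of_injective φ hφ).trans ?_
  rw [Nat.card_eq_finsetCard, Finset.card_sigma]
  refine (Finset.sum_le_card_nsmul _ _ 48 fun u _ => hT u).trans ?_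
  simp

end Cfsg.Agent.H78.M11G
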