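import Mathlib
import Cfsg.Agent.H13.Groups
import Cfsg.Agent.H78.M11G.Involutions
import Cfsg.Agent.H78.M11G.Graph

/-!
A group with the commuting structure of M₁₁ is isomorphic to M₁₁.
-/

set_option autoImplicit false

namespace Cfsg.Agent.H78.M11G

open Cfsg.Agent.H13 Cfsg.Agent.H13.Data

section

variable {H : Type*} [Group H] [Finite H] (e : H ≃ W)
  (hc : ∀ x y : H, x * y = y * x ↔ e x * e y = e y * e x)

include hc

theorem e_one : e 1 = 1 := by
  have key : ∀ v : W, e 1 * v = v * e 1 := fun v => by
    have := (hc 1 (e.symm v)).mp (by rw [one_mul, mul_one])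
    rwa [e.apply_symm_apply] at this
  exact eq_one_of_commute (key _) (key _)

theorem card_centralizer_e (x : H) :
    Nat.card (Subgroup.centralizer ({x} : Set H)) =
      Nat.card (Subgroup.centralizer ({e x} : Set W)) :=
  Nat.card_congr
    { toFun := fun y => ⟨e y.1, Subgroup.mem_centralizer_singleton_iff.mpr
        ((hc _ _).mp (Subgroup.mem_centralizer_singleton_iff.mp y.2))⟩
      invFun := fun g => ⟨e.symm g.1, Subgroup.mem_centralizer_singleton_iff.mpr
        ((hc _ _).mpr (by simpa using Subgroup.mem_centralizer_singleton_iff.mp g.2))⟩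
      left_inv := fun y => Subtype.ext (e.symm_apply_apply _)
      right_inv := fun g => Subtype.ext (e.apply_symm_apply _) }

theorem exists_conj_index (h : H) (k : Fin 165) : ∃ j, e (h * e.symm (vEl k) * h⁻¹) = vEl j := by
  set x := e.symm (vEl k) with hx
  refine eq_vEl_of_card ?_ ?_
  · intro h'
    have h1 : h * x * h⁻¹ = 1 := e.injective (h'.trans (e_one e hc).symm)
    have hx1 : x = 1 := conj_eq_one_iff.mp h1
    have hk : vEl k = 1 := by rw [← e.apply_symm_apply (vEl k), ← hx, hx1, e_one e hc]
    have h48 := card_centralizer_vEl k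
    have htop : Subgroup.centralizer ({(1 : W)} : Set W) = ⊤ := by
      rw [eq_top_iff]
      intro g _
      rw [Subgroup.mem_centralizer_singleton_iff]
      simp
    rw [hk, htop, Subgroup.card_top, card_W] at h48
    norm_num at h48
  · rw [← card_centralizer_e e hc, card_centralizer_conj, card_centralizer_e e hc, hx,
      e.apply_symm_apply, card_centralizer_vEl]

/-- The embedding in the automorphism group of the commuting graph of involutions. -/
theorem exists_embedding :
    ∃ f : H →* Equiv.Perm (Fin 165), Function.Injective f ∧ ∀ h, f h ∈ autGraph := by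
  classical
  choose κ hκ using exists_conj_index e hc
  have hκ' : ∀ h k, h * e.symm (vEl k) * h⁻¹ = e.symm (vEl (κ h k)) := fun h k => by
    rw [← hκ, e.symm_apply_apply]
  have hmul : ∀ h h' k, κ (h * h') k = κ h (κ h' k) := by
    intro h h' k
    refine vEl_injective (e.symm.injective ?_)
    rw [← hκ', ← hκ', ← hκ']
    group
  have hone : ∀ k, κ 1 k = k := fun k => vEl_injective (e.symm.injective (by rw [← hκ']; group))
  let f : H →* Equiv.Perm (Fin 165) :=
    { toFun := fun h =>
        { toFun := κ h
          invFun := κ h⁻¹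
          left_inv := fun x => by rw [← hmul, inv_mul_cancel, hone]
          right_inv := fun x => by rw [← hmul, mul_inv_cancel, hone] }
      map_one' := Equiv.ext hone
      map_mul' := fun a b => Equiv.ext (hmul a b) }
  refine ⟨f, ?_, ?_⟩
  · rw [← MonoidHom.ker_eq_bot_iff, Subgroup.eq_bot_iff_forall]
    intro h hh
    have hfix : ∀ k, κ h k = k := fun k =>
      congrArg (fun p : Equiv.Perm (Fin 165) => p k) (MonoidHom.mem_ker.mp hh)
    have hcomm : ∀ k, e h * vEl k = vEl k * e h := by
      intro k
      have h' := hκ' h k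
      rw [hfix, mul_inv_eq_iff_eq_mul] at h'
      have := (hc _ _).mp h'
      rwa [e.apply_symm_apply] at this
    exact e.injective ((eq_one_of_commute (hcomm _) (hcomm _)).trans (e_one e hc).symm)
  · intro h x y
    show (row (κ h x)).testBit (κ h y) = (row x).testBit y
    rw [Bool.eq_iff_iff, testBit_row, testBit_row]
    refine and_congr (f h).injective.ne_iff ?_
    have hv : ∀ i j, (vEl i * vEl j = vEl j * vEl i) ↔
        e.symm (vEl i) * e.symm (vEl j) = e.symm (vEl j) * e.symm (vEl i) := fun i j => by
      rw [hc, e.apply_symm_apply, e.apply_symm_apply]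
    rw [hv, hv, ← hκ', ← hκ']
    constructor
    · intro hh
      calc e.symm (vEl x) * e.symm (vEl y)
          = h⁻¹ * (h * e.symm (vEl x) * h⁻¹ * (h * e.symm (vEl y) * h⁻¹)) * h := by group
        _ = h⁻¹ * (h * e.symm (vEl y) * h⁻¹ * (h * e.symm (vEl x) * h⁻¹)) * h := by rw [hh]
        _ = _ := by group
    · intro hh
      calc h * e.symm (vEl x) * h⁻¹ * (h * e.symm (vEl y) * h⁻¹)
          = h * (e.symm (vEl x) * e.symm (vEl y)) * h⁻¹ := by group
        _ = h * (e.symm (vEl y) * e.symm (vEl x)) * h⁻¹ := by rw [hh]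
        _ = _ := by group

theorem nonempty_equiv_autGraph : Nonempty (H ≃* autGraph) := by
  obtain ⟨f, hf, hfA⟩ := exists_embedding e hc
  have hfr : Nat.card f.range = 7920 := by
    rw [← card_W, ← Nat.card_congr e]
    exact (Nat.card_congr (MonoidHom.ofInjective hf).toEquiv).symm
  have hfle : f.range ≤ autGraph := by rintro _ ⟨h, rfl⟩; exact hfA h
  have heq : f.range = autGraph :=
    Subgroup.eq_of_le_of_card_ge hfle (by rw [hfr]; exact card_autGraph_le)
  exact ⟨(MonoidHom.ofInjective hf).trans (MulEquiv.subgroupCongr heq)⟩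

end

/-- A group with the commuting structure of M₁₁ is M₁₁. -/
theorem nonempty_equiv_M11 {H : Type*} [Group H] [Finite H] (e : H ≃ ↥Cfsg.Spor.M11)
    (hc : ∀ x y : H, x * y = y * x ↔ e x * e y = e y * e x) :
    Nonempty (H ≃* ↥Cfsg.Spor.M11) := by
  let E : ↥Cfsg.Spor.M11 ≃* W := MulEquiv.subgroupCongr M11_eq
  obtain ⟨a⟩ := nonempty_equiv_autGraph (e.trans E.toEquiv) (fun x y => by
    refine (hc x y).trans ?_
    show _ ↔ E (e x) * E (e y) = E (e y) * E (e x)
    rw [← map_mul E, ← map_mul E]
    exact E.injective.eq_iff.symm)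
  obtain ⟨b⟩ := nonempty_equiv_autGraph (Equiv.refl W) (fun _ _ => Iff.rfl)
  exact ⟨(a.trans b.symm).trans E.symm⟩

end Cfsg.Agent.H78.M11G
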